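import Cfsg.Agent.Lib.KnownSimple.J1.Chain
import Cfsg.Agent.Lib.KnownSimple.J1.Data2
import Cfsg.Agent.Lib.KnownSimple.Schur

/-!
# The Schur multiplier of `J₁`
-/

set_option autoImplicit false

namespace Cfsg.Agent.Lib.KnownSimple.J1

open Cfsg Cfsg.Spor Cfsg.Agent.Lib.Compute Cfsg.Agent.Lib.KnownSimple.PE Cfsg.Agent.Lib.KnownSimple.J1Data
open Cfsg.Agent.Lib.KnownSimple.J1Data2 Cfsg.Agent.Lib.KnownSimple.Schur

universe u

/-- An involution. -/
noncomputable def e₀ : G := wd wordE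
/-- An element of order 7 normalising the Sylow 2-subgroup. -/
noncomputable def F : G := wd wordF

theorem code_e₀ : E.IsCode ((e₀ : G) : Equiv.Perm (Fin N)) (pc pE) := code_wd _ _ (by decide +kernel)
theorem code_F : E.IsCode ((F : G) : Equiv.Perm (Fin N)) (pc pF) := code_wd _ _ (by decide +kernel)

theorem F_pow : F ^ 7 = 1 :=
  eq_of_codes (coe_pow_isCode code_F 7) (isCode_one E) (by decide +kernel) (by decide +kernel)

theorem F_inv : F⁻¹ = F ^ 6 := by
  apply inv_eq_of_mul_eq_one_right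
  rw [← pow_succ', F_pow]

theorem code_Fi : E.IsCode ((F⁻¹ : G) : Equiv.Perm (Fin N)) (iterN (pc pF) 6) := by
  rw [F_inv]
  exact coe_pow_isCode code_F 6

/-- The second involution. -/
noncomputable def e₁ : G := F * e₀ * F⁻¹
/-- The third involution. -/
noncomputable def e₂ : G := F * e₁ * F⁻¹

theorem code_e₁ : E.IsCode ((e₁ : G) : Equiv.Perm (Fin N)) (fun i => pc pF (pc pE (iterN (pc pF) 6 i))) :=
  by
    have h := coe_code_mul (coe_code_mul code_F code_e₀) code_Fi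
    exact h

/-- The code of the third involution. -/
noncomputable def ce₂ : ℕ → ℕ := fun i => pc pF (pc pF (pc pE (iterN (pc pF) 6 (iterN (pc pF) 6 i))))

theorem code_e₂ : E.IsCode ((e₂ : G) : Equiv.Perm (Fin N)) ce₂ :=
  by
    have h := coe_code_mul (coe_code_mul code_F code_e₁) code_Fi
    exact h

theorem rel3 : F * e₂ * F⁻¹ = e₀ * e₁ :=
  eq_of_codes (coe_code_mul (coe_code_mul code_F code_e₂) code_Fi) (coe_code_mul code_e₀ code_e₁)
    (by decide +kernel) (by decide +kernel)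

theorem c01 : e₀ * e₁ = e₁ * e₀ :=
  eq_of_codes (coe_code_mul code_e₀ code_e₁) (coe_code_mul code_e₁ code_e₀) (by decide +kernel) (by decide +kernel)
theorem c02 : e₀ * e₂ = e₂ * e₀ :=
  eq_of_codes (coe_code_mul code_e₀ code_e₂) (coe_code_mul code_e₂ code_e₀) (by decide +kernel) (by decide +kernel)
theorem c12 : e₁ * e₂ = e₂ * e₁ :=
  eq_of_codes (coe_code_mul code_e₁ code_e₂) (coe_code_mul code_e₂ code_e₁) (by decide +kernel) (by decide +kernel)

theorem s0 : e₀ ^ 2 = 1 :=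
  eq_of_codes (coe_pow_isCode code_e₀ 2) (isCode_one E) (by decide +kernel) (by decide +kernel)
theorem s1 : e₁ ^ 2 = 1 :=
  eq_of_codes (coe_pow_isCode code_e₁ 2) (isCode_one E) (by decide +kernel) (by decide +kernel)
theorem s2 : e₂ ^ 2 = 1 :=
  eq_of_codes (coe_pow_isCode code_e₂ 2) (isCode_one E) (by decide +kernel) (by decide +kernel)

/-- The eight images of a point. -/
noncomputable def v8 (i : ℕ) : ℕ :=
  iterN (pc pE) (i % 2) (iterN (fun i => pc pF (pc pE (iterN (pc pF) 6 i))) (i / 2 % 2) (iterN ce₂ (i / 4) ptB))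

theorem v8_inj : allBelow (fun i => allBelow (fun j => Nat.beq i j || !(Nat.beq (v8 i) (v8 j))) 8) 8 = true := by
  decide +kernel

theorem ptB_lt : ptB < N := by decide +kernel

theorem card_closure : 8 ≤ Nat.card (Subgroup.closure ({e₀, e₁, e₂} : Set G)) := by
  have hm0 : e₀ ∈ Subgroup.closure ({e₀, e₁, e₂} : Set G) := Subgroup.subset_closure (by simp)
  have hm1 : e₁ ∈ Subgroup.closure ({e₀, e₁, e₂} : Set G) := Subgroup.subset_closure (by simp)
  have hm2 : e₂ ∈ Subgroup.closure ({e₀, e₁, e₂} : Set G) := Subgroup.subset_closure (by simp)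
  let f : Fin 8 → Subgroup.closure ({e₀, e₁, e₂} : Set G) := fun i =>
    ⟨e₀ ^ (i.val % 2) * (e₁ ^ (i.val / 2 % 2) * e₂ ^ (i.val / 4)),
      mul_mem (pow_mem hm0 _) (mul_mem (pow_mem hm1 _) (pow_mem hm2 _))⟩
  have hc : ∀ i : ℕ, E.IsCode ((e₀ ^ (i % 2) * (e₁ ^ (i / 2 % 2) * e₂ ^ (i / 4)) : G) : Equiv.Perm (Fin N))
      (fun q => iterN (pc pE) (i % 2) (iterN (fun i => pc pF (pc pE (iterN (pc pF) 6 i))) (i / 2 % 2) (iterN ce₂ (i / 4) q))) :=
    fun i => coe_code_mul (coe_pow_isCode code_e₀ _) (coe_code_mul (coe_pow_isCode code_e₁ _) (coe_pow_isCode code_e₂ _))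
  have hf : Function.Injective f := by
    intro i j hij
    have h1 : ((e₀ ^ (i.val % 2) * (e₁ ^ (i.val / 2 % 2) * e₂ ^ (i.val / 4)) : G) : Equiv.Perm (Fin N)) =
        ((e₀ ^ (j.val % 2) * (e₁ ^ (j.val / 2 % 2) * e₂ ^ (j.val / 4)) : G) : Equiv.Perm (Fin N)) :=
      congrArg (fun a : Subgroup.closure ({e₀, e₁, e₂} : Set G) => ((a : G) : Equiv.Perm (Fin N))) hij
    have h2 : v8 i.val = v8 j.val := by
      have h3 := code_idx (hc i.val) ptB_lt
      have h4 := code_idx (hc j.val) ptB_lt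
      rw [h1, h4] at h3
      exact h3.symm
    have h5 := (allBelow_iff _ _).1 ((allBelow_iff _ _).1 v8_inj i.val i.isLt) j.val j.isLt
    rw [Bool.or_eq_true, h2, Nat.beq_refl] at h5
    simp only [Bool.not_true, Bool.false_eq_true, or_false] at h5
    exact Fin.ext (Nat.eq_of_beq_eq_true h5)
  have := Nat.card_le_card_of_injective f hf
  simpa using this

theorem not_16 : ¬ 2 ^ 4 ∣ Nat.card G := by
  rw [show Nat.card G = 175560 from card_H]
  norm_num

theorem not_sq (p : ℕ) (hp : p.Prime) (h2 : p ≠ 2) : ¬ p ^ 2 ∣ Nat.card G := by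
  rw [show Nat.card G = 175560 from card_H]
  intro h
  have h1 : p ^ 2 ∣ 8 * 21945 := by simpa using h
  have h3 : Nat.Coprime (p ^ 2) 8 := by
    apply Nat.Coprime.pow_left
    have : Nat.Coprime p (2 ^ 3) := Nat.Coprime.pow_right 3 ((Nat.coprime_primes hp Nat.prime_two).2 h2)
    simpa using this
  have h4 : p ^ 2 ∣ 21945 := h3.dvd_of_dvd_mul_left h1
  have h5 : Squarefree 21945 := by
    decide +kernel
  have h6 := h5 p (by rw [← pow_two]; exact h4)
  exact hp.one_lt.ne' (Nat.isUnit_iff.1 h6)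

theorem stem_G (Γ : Type) [Group Γ] [Finite Γ] (σ : Γ →* G) (hσ : IsStemExtension σ) : σ.ker = ⊥ := by
  apply ker_eq_bot_of_sylow hσ
  intro p _
  by_cases hp : p = 2
  · subst hp
    obtain ⟨P, hP⟩ := exists_sylow_eq_closure s0 s1 s2 c01 c02 c12 not_16 card_closure
    obtain ⟨Q, hQ⟩ := Sylow.mapSurjective_surjective hσ.1 2 P
    refine ⟨Q, ⟨⟨fun a b => ?_⟩⟩⟩
    apply Subtype.ext
    have hmem : ∀ a : (Q : Subgroup Γ), σ (a : Γ) ∈ Subgroup.closure ({e₀, e₁, e₂} : Set G) := by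
      intro a
      rw [← hP, ← hQ, Sylow.coe_mapSurjective]
      exact ⟨a, a.2, rfl⟩
    exact preimage_comm hσ.1 hσ.2.1 (x := F) rfl rfl rel3 c01 c02 c12 (hmem a) (hmem b)
  · obtain ⟨Q⟩ : Nonempty (Sylow p Γ) := inferInstance
    exact ⟨Q, abelian_of_not_sq_dvd hσ.2.1 Q (not_sq p Fact.out hp)⟩

theorem multiplier_J1 : HasCyclicSchurMultiplier ↥J1 1 :=
  hasCyclic_one (hasCyclic_one_congr (equivRange ρ ρ_inj) stem_G)

end Cfsg.Agent.Lib.KnownSimple.J1
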