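import Cfsg.Agent.Lib.KnownSimple.J1.Mult
import Cfsg.Agent.Lib.KnownSimple.J1.SpecData

/-!
# The element orders of the Janko group `J₁`

Every element of `J₁` is conjugate to an element `t * l`, where `l` lies in the stabiliser of the first
base point (order `57`), and `t` is the transversal element of one of the `68` representatives of
the orbits of that stabiliser.  A kernel computation shows that all these `3876` elements have order
dividing one of `19, 15, 11, 10, 7, 6`.
-/

set_option autoImplicit false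

namespace Cfsg.Agent.Lib.KnownSimple.J1

open Cfsg Cfsg.Spor Cfsg.Agent.Lib.Compute Cfsg.Agent.Lib.KnownSimple.PE Cfsg.Agent.Lib.KnownSimple.J1Data
open Cfsg.Agent.Lib.KnownSimple.J1SpecData

/-- The transversal index attached to a point. -/
noncomputable def zOf (y : ℕ) : ℕ := pget 12 4095 zT y

/-- The check of the table of transversal indices. -/
noncomputable def zCheck : Bool :=
  allBelow (fun y => bcond (tb L1.D (zOf y)) (bcond (Nat.blt (zOf y) N) (tb Rm (L1.dn (zOf y) y)) false) false) N

theorem zCheck_true : zCheck = true := by decide +kernel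

/-- The test of one exponent. -/
noncomputable def goodN (f : ℕ → ℕ) (n : ℕ) : Bool :=
  bcond (Nat.beq (iterN f n 10) 10) (Nat.beq (iterN f n 0) 0) false

/-- The test of all the exponents. -/
noncomputable def goodF (f : ℕ → ℕ) : Bool :=
  bcond (goodN f 19) true (bcond (goodN f 15) true (bcond (goodN f 11) true
    (bcond (goodN f 10) true (bcond (goodN f 7) true (goodN f 6)))))

/-- The check of all the class representatives. -/
noncomputable def repCheck : Bool :=
  allBelow (fun r => bcond (tb Rm r) (allBelow (fun z => bcond (tb L1.D z)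
    (goodF (fun p => L0.dn r (L1.dn z p))) true) N) true) N

theorem repCheck_true : repCheck = true := by decide +kernel


theorem goodF_spec {f : ℕ → ℕ} (h : goodF f = true) :
    ∃ n, (n = 19 ∨ n = 15 ∨ n = 11 ∨ n = 10 ∨ n = 7 ∨ n = 6) ∧ iterN f n 10 = 10 ∧ iterN f n 0 = 0 := by
  have key : ∀ n, goodN f n = true → iterN f n 10 = 10 ∧ iterN f n 0 = 0 := by
    intro n hn
    unfold goodN at hn
    cases h1 : Nat.beq (iterN f n 10) 10 with
    | false => rw [h1, bcond_false] at hn; exact Bool.noConfusion hn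
    | true =>
      rw [h1, bcond_true] at hn
      exact ⟨Nat.eq_of_beq_eq_true h1, Nat.eq_of_beq_eq_true hn⟩
  unfold goodF at h
  cases h19 : goodN f 19 with
  | true => exact ⟨19, by simp, key 19 h19⟩
  | false =>
    rw [h19, bcond_false] at h
    cases h15 : goodN f 15 with
    | true => exact ⟨15, by simp, key 15 h15⟩
    | false =>
      rw [h15, bcond_false] at h
      cases h11 : goodN f 11 with
      | true => exact ⟨11, by simp, key 11 h11⟩
      | false =>
        rw [h11, bcond_false] at h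
        cases h10 : goodN f 10 with
        | true => exact ⟨10, by simp, key 10 h10⟩
        | false =>
          rw [h10, bcond_false] at h
          cases h7 : goodN f 7 with
          | true => exact ⟨7, by simp, key 7 h7⟩
          | false =>
            rw [h7, bcond_false] at h
            exact ⟨6, by simp, key 6 h⟩

/-- A normal form for conjugates of elements of the group. -/
theorem exists_conj_code (σ : Equiv.Perm (Fin N)) (hσ : σ ∈ K0) :
    ∃ t ∈ K0, ∃ r z, E.IsCode (t * σ * t⁻¹) (fun p => L0.dn r (L1.dn z p)) ∧ tb Rm r = true ∧ r < N ∧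
      tb L1.D z = true ∧ z < N := by
  have hy : E.idx (σ (E.pt 10)) < N := E.idx_lt _
  set y := E.idx (σ (E.pt 10)) with hyd
  have h1 := (allBelow_iff _ _).1 zCheck_true y hy
  cases h2 : tb L1.D (zOf y) with
  | false => rw [h2, bcond_false] at h1; exact Bool.noConfusion h1
  | true =>
    rw [h2, bcond_true] at h1
    cases h3 : Nat.blt (zOf y) N with
    | false => rw [h3, bcond_false] at h1; exact Bool.noConfusion h1
    | true =>
      rw [h3, bcond_true] at h1
      have h3' : zOf y < N := by simpa [Nat.blt_eq] using h3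
      obtain ⟨t, htK, _, htc, _⟩ := levelL1.trans (zOf y) h3' h2
      have hfix : t (E.pt 10) = E.pt 10 := fix_K1 t htK
      have htK0 : t ∈ K0 := K1_le_K0 htK
      have hτ : t * σ * t⁻¹ ∈ K0 := K0.mul_mem (K0.mul_mem htK0 hσ) (K0.inv_mem htK0)
      have hfixi : t⁻¹ (E.pt 10) = E.pt 10 := by
        rw [Equiv.Perm.inv_eq_iff_eq, hfix]
      have hy' : σ (E.pt 10) = E.pt y := by rw [hyd, E.pt_idx]
      set r := L1.dn (zOf y) y with hr
      have hylt : y < N := hy
      have hrlt : r < N := code_lt htc hylt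
      have hτ10 : (t * σ * t⁻¹) (E.pt 10) = E.pt r := by
        rw [Equiv.Perm.mul_apply, Equiv.Perm.mul_apply, hfixi, hy', apply_pt htc hylt]
      have hD0 : tb L0.D r = true := by
        have := levelL0.orbit _ hτ
        rw [show L0.b = 10 from rfl, hτ10, E.idx_pt r hrlt] at this
        exact this
      obtain ⟨t0, ht0K, ht0p, ht0c, ht0i⟩ := levelL0.trans r hrlt hD0
      have hl : t0⁻¹ * (t * σ * t⁻¹) ∈ K1 := by
        apply levelL0.stab _ (K0.mul_mem (K0.inv_mem ht0K) hτ)
        rw [Equiv.Perm.mul_apply, Equiv.Perm.inv_eq_iff_eq, ht0p]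
        exact hτ10
      set l := t0⁻¹ * (t * σ * t⁻¹) with hld
      have hz1 : tb L1.D (E.idx (l (E.pt L1.b))) = true := levelL1.orbit _ hl
      have hzlt : E.idx (l (E.pt L1.b)) < N := E.idx_lt _
      set z := E.idx (l (E.pt L1.b)) with hzd
      obtain ⟨t1, ht1K, ht1p, ht1c, ht1i⟩ := levelL1.trans z hzlt hz1
      have hbot : t1⁻¹ * l ∈ (⊥ : Subgroup (Equiv.Perm (Fin N))) := by
        apply levelL1.stab _ (K1.mul_mem (K1.inv_mem ht1K) hl)
        rw [Equiv.Perm.mul_apply, Equiv.Perm.inv_eq_iff_eq, ht1p, hzd, E.pt_idx]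
      have hlt1 : l = t1 := by
        have := (Subgroup.mem_bot).1 hbot
        exact (inv_mul_eq_one.1 this).symm
      have hτe : t * σ * t⁻¹ = t0 * t1 := by
        rw [← hlt1, hld]
        group
      refine ⟨t, htK0, r, z, ?_, h1, hrlt, hz1, hzlt⟩
      rw [hτe]
      exact isCode_mul ht0c ht1c

/-- Every element of the permutation group has order dividing one of the six numbers. -/
theorem exists_pow_K0 (σ : Equiv.Perm (Fin N)) (hσ : σ ∈ K0) :
    ∃ n, (n = 19 ∨ n = 15 ∨ n = 11 ∨ n = 10 ∨ n = 7 ∨ n = 6) ∧ σ ^ n = 1 := by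
  obtain ⟨t, htK, r, z, hc, hr, hrlt, hz, hzlt⟩ := exists_conj_code σ hσ
  have h1 := (allBelow_iff _ _).1 repCheck_true r hrlt
  rw [hr, bcond_true] at h1
  have h2 := (allBelow_iff _ _).1 h1 z hzlt
  rw [hz, bcond_true] at h2
  obtain ⟨n, hn, h3, h4⟩ := goodF_spec h2
  refine ⟨n, hn, ?_⟩
  have hτ : t * σ * t⁻¹ ∈ H := by
    rw [H_eq]
    exact K0.mul_mem (K0.mul_mem htK hσ) (K0.inv_mem htK)
  have hp : (t * σ * t⁻¹) ^ n = 1 := by
    apply based2
    · rw [H_eq] at hτ ⊢
      exact K0.pow_mem hτ n
    · intro b hb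
      have hc' := isCode_pow hc n
      rcases List.mem_cons.1 hb with rfl | hb
      · exact fix_of_code hc' (by norm_num) h3
      · rw [List.mem_singleton.1 hb]
        exact fix_of_code hc' (by norm_num) h4
  rw [conj_pow] at hp
  have : t * σ ^ n = t := by
    have h5 := congrArg (· * t) hp
    simpa using h5
  exact mul_eq_left.1 this

/-- Every element of `J₁` has order dividing one of the six numbers. -/
theorem exists_pow_J1 (g : ↥J1) :
    ∃ n, (n = 19 ∨ n = 15 ∨ n = 11 ∨ n = 10 ∨ n = 7 ∨ n = 6) ∧ g ^ n = 1 := by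
  have h1 : ρ g ∈ K0 := H_le ⟨g, rfl⟩
  obtain ⟨n, hn, h2⟩ := exists_pow_K0 _ h1
  refine ⟨n, hn, ρ_inj ?_⟩
  rw [map_pow, h2, map_one]

/-- The set of element orders of `J₁` is contained in the expected one. -/
theorem orderOf_J1_mem (g : ↥J1) :
    orderOf g ∈ ({1, 2, 3, 5, 6, 7, 10, 11, 15, 19} : Finset ℕ) := by
  obtain ⟨n, hn, h⟩ := exists_pow_J1 g
  have h1 := orderOf_dvd_of_pow_eq_one h
  have h2 : orderOf g ∈ Nat.divisors n := Nat.mem_divisors.2 ⟨h1, by rcases hn with rfl | rfl | rfl | rfl | rfl | rfl <;> norm_num⟩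
  rcases hn with rfl | rfl | rfl | rfl | rfl | rfl <;> revert h2 <;> generalize orderOf g = m <;> revert m <;> decide

theorem exists_orderOf_six : ∃ g : ↥J1, orderOf g = 6 := by
  obtain ⟨g, hg⟩ := u.2
  refine ⟨g, ?_⟩
  rw [← orderOf_injective ρ ρ_inj g, hg, Subgroup.orderOf_coe]
  apply orderOf_eq_of_pow_and_pow_div_prime (by norm_num) u_pow
  intro p hp hd
  have hp2 : p = 2 ∨ p = 3 := by
    have : p ∣ 2 * 3 := hd
    rcases (Nat.Prime.dvd_mul hp).1 this with h | h
    · exact Or.inl ((Nat.prime_dvd_prime_iff_eq hp Nat.prime_two).1 h)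
    · exact Or.inr ((Nat.prime_dvd_prime_iff_eq hp Nat.prime_three).1 h)
  rcases hp2 with rfl | rfl
  · intro h
    have h1 := code_idx (coe_pow_isCode code_u 3) (i := 0) (by norm_num)
    rw [show 6 / 2 = 3 from rfl] at h
    rw [h] at h1
    have h2 : iterN (pc pU) 3 0 = 0 := by
      rw [← h1]
      rfl
    exact absurd h2 (by decide +kernel)
  · intro h
    have h1 := code_idx (coe_pow_isCode code_u 2) (i := 0) (by norm_num)
    rw [show 6 / 3 = 2 from rfl] at h
    rw [h] at h1
    have h2 : iterN (pc pU) 2 0 = 0 := by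
      rw [← h1]
      rfl
    exact absurd h2 (by decide +kernel)

theorem exists_orderOf_seven : ∃ g : ↥J1, orderOf g = 7 := by
  obtain ⟨g, hg⟩ := F.2
  refine ⟨g, ?_⟩
  rw [← orderOf_injective ρ ρ_inj g, hg, Subgroup.orderOf_coe]
  haveI : Fact (Nat.Prime 7) := ⟨by norm_num⟩
  apply orderOf_eq_prime F_pow
  intro h
  have h1 := code_idx code_F (i := 0) (by norm_num)
  rw [h] at h1
  have h2 : pc J1Data2.pF 0 = 0 := by
    rw [← h1]
    rfl
  exact absurd h2 (by decide +kernel)

end Cfsg.Agent.Lib.KnownSimple.J1
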